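import Cfsg.Agent.ClassSizes.LargestTwoStructure
import Cfsg.Agent.ClassSizes.PPrimeCentral
import Cfsg.Agent.ClassSizes.MaxClass
import Cfsg.Agent.Transfer.NormalPComplement
import Mathlib

/-!
Groups whose class sizes are `1`, `m` and `m * n` with `m` and `n` coprime: basic facts.

For a noncentral `s`-element with `s ∣ m` the centraliser is the direct product of its Sylow `s`-subgroup
and a normal `s`-complement.
-/

set_option autoImplicit false

namespace CfsgLib.RankTwoClass

open CfsgLib.TwoSizes (cen mem_cen IsPElt cen_mul_le center_le_cen cen_eq_top isPElt_coprime le_of_forall_pElt)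
open CfsgLib.CoprimeLargest (idx idx_ne_zero idx_eq_one_iff idx_conj cen_central_mul idx_dvd_of_le
  cen_eq_of_le_of_idx coprime_orderOf_of_pElt factorization_le_center exists_prime_pElt_not_central)

variable {G : Type*} [Group G]

/-- The class sizes are `1`, `m` and `m * n`. -/
structure Hyp (G : Type*) [Group G] (m n : ℕ) : Prop where
  one_lt_m : 1 < m
  one_lt_n : 1 < n
  cop : m.Coprime n
  tri : ∀ g : G, g ∉ Subgroup.center G → idx g = m ∨ idx g = m * n
  exists_m : ∃ g : G, idx g = m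
  exists_mn : ∃ g : G, idx g = m * n

theorem cen_conj (g x : G) : cen (g * x * g⁻¹) = (cen x).map (MulAut.conj g).toMonoidHom := by
  ext y
  rw [Subgroup.mem_map_equiv, mem_cen, mem_cen, MulAut.conj_symm_apply]
  constructor
  · intro h
    calc g⁻¹ * y * g * x = g⁻¹ * (y * (g * x * g⁻¹)) * g := by group
      _ = g⁻¹ * (g * x * g⁻¹ * y) * g := by rw [h]
      _ = x * (g⁻¹ * y * g) := by group
  · intro h
    calc y * (g * x * g⁻¹) = g * (g⁻¹ * y * g * x) * g⁻¹ := by group
      _ = g * (x * (g⁻¹ * y * g)) * g⁻¹ := by rw [h]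
      _ = g * x * g⁻¹ * y := by group

theorem isPElt_conj {s : ℕ} {x : G} (hx : IsPElt s x) (g : G) : IsPElt s (g * x * g⁻¹) := by
  obtain ⟨k, hk⟩ := hx
  refine ⟨k, ?_⟩
  rw [conj_pow, hk]
  group

theorem conj_not_central {x : G} (hx : x ∉ Subgroup.center G) (g : G) :
    g * x * g⁻¹ ∉ Subgroup.center G := fun h => hx (by
  have := (inferInstance : (Subgroup.center G).Normal).conj_mem _ h g⁻¹
  simpa [mul_assoc] using this)

theorem isPElt_of_mem {s : ℕ} {R : Subgroup G} (hR : IsPGroup s R) {x : G} (hx : x ∈ R) : IsPElt s x := by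
  obtain ⟨k, hk⟩ := hR ⟨x, hx⟩
  exact ⟨k, congrArg Subtype.val hk⟩

theorem isPGroup_zpowers {s : ℕ} {x : G} (hx : IsPElt s x) : IsPGroup s (Subgroup.zpowers x) := by
  rintro ⟨_, i, rfl⟩
  obtain ⟨k, hk⟩ := hx
  refine ⟨k, Subtype.ext ?_⟩
  show (x ^ i) ^ s ^ k = 1
  rw [← zpow_natCast, ← zpow_mul, mul_comm, zpow_mul, zpow_natCast, hk, one_zpow]

theorem isPElt_of_pow_dvd {s : ℕ} {x : G} {k : ℕ} (h : orderOf x ∣ s ^ k) : IsPElt s x :=
  ⟨k, orderOf_dvd_iff_pow_eq_one.1 h⟩

/-- A conjugate of `y` by a power of `x` when `[x, y]` is central. -/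
theorem conj_pow_eq {a v c : G} (h : a * v * a⁻¹ = c * v) (hc : Commute a c) (k : ℕ) :
    a ^ k * v * (a ^ k)⁻¹ = c ^ k * v := by
  induction k with
  | zero => simp
  | succ k ih =>
    have hck : a * c ^ k * a⁻¹ = c ^ k := by
      rw [(hc.pow_right k).eq, mul_inv_cancel_right]
    calc a ^ (k + 1) * v * (a ^ (k + 1))⁻¹ = a * (a ^ k * v * (a ^ k)⁻¹) * a⁻¹ := by
          rw [pow_succ']; group
      _ = a * c ^ k * a⁻¹ * (a * v * a⁻¹) := by rw [ih]; group
      _ = c ^ k * (c * v) := by rw [hck, h]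
      _ = c ^ (k + 1) * v := by rw [← mul_assoc, pow_succ]

/-- An element inducing a central translation of order prime to that of the translated element fixes it. -/
theorem eq_one_of_conj_eq {a v c : G} (h : a * v * a⁻¹ = c * v) (hc : Commute a c)
    (hcop : (orderOf c).Coprime (orderOf a)) : c = 1 := by
  have h1 := conj_pow_eq h hc (orderOf a)
  rw [pow_orderOf_eq_one, one_mul, inv_one, mul_one] at h1
  have h2 : c ^ orderOf a = 1 := mul_right_cancel (h1.symm.trans (one_mul v).symm)
  exact orderOf_eq_one_iff.1 (Nat.eq_one_of_dvd_coprimes hcop dvd_rfl (orderOf_dvd_of_pow_eq_one h2))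

variable [Finite G]

theorem cen_mul_eq_inf {a b : G} (hab : Commute a b) (hcop : (orderOf a).Coprime (orderOf b)) :
    cen (a * b) = cen a ⊓ cen b := by
  refine le_antisymm (CfsgLib.CoprimeLargest.cen_mul_le_inf hab hcop) fun g hg => mem_cen.2 ?_
  exact (Commute.mul_right (mem_cen.1 hg.1 : Commute g a) (mem_cen.1 hg.2 : Commute g b)).eq

theorem mul_not_central {a b : G} (hab : Commute a b) (hcop : (orderOf a).Coprime (orderOf b))
    (ha : a ∉ Subgroup.center G) : a * b ∉ Subgroup.center G := fun h => ha (by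
  rw [← idx_eq_one_iff]
  exact Nat.dvd_one.1 ((idx_eq_one_iff _).2 h ▸ idx_dvd_of_le (cen_mul_le hab hcop)))

theorem card_fact_add (g : G) (s : ℕ) :
    (Nat.card (cen g)).factorization s + (idx g).factorization s = (Nat.card G).factorization s := by
  rw [← Finsupp.add_apply, ← Nat.factorization_mul Nat.card_pos.ne' (idx_ne_zero g),
    Subgroup.card_mul_index]

theorem fact_le_of_le {K L : Subgroup G} (h : K ≤ L) (s : ℕ) :
    (Nat.card K).factorization s ≤ (Nat.card L).factorization s :=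
  (Nat.factorization_le_iff_dvd Nat.card_pos.ne' Nat.card_pos.ne').2 (Subgroup.card_dvd_of_le h) s

/-- A subgroup over the centre with a noncentral `s`-element has larger `s`-part. -/
theorem center_fact_lt {s : ℕ} [Fact s.Prime] {K : Subgroup G} (hZK : Subgroup.center G ≤ K) {e : G}
    (he : e ∈ K) (hes : IsPElt s e) (heZ : e ∉ Subgroup.center G) :
    (Nat.card (Subgroup.center G)).factorization s < (Nat.card K).factorization s := by
  have hs : s.Prime := Fact.out
  set r := (Subgroup.center G).relIndex K with hr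
  have hmul : Nat.card (Subgroup.center G) * r = Nat.card K := by
    have h := Subgroup.relIndex_mul_relIndex ⊥ (Subgroup.center G) K bot_le hZK
    rwa [Subgroup.relIndex_bot_left, Subgroup.relIndex_bot_left] at h
  have hr0 : r ≠ 0 := fun h => Nat.card_pos.ne' (by rw [← hmul, h, mul_zero] : Nat.card K = 0)
  have hsr : s ∣ r := by
    by_contra hsr
    have h1 : e ^ r ∈ Subgroup.center G := by
      simpa [Subgroup.mem_subgroupOf, hr, Subgroup.relIndex] using
        Subgroup.pow_index_mem ((Subgroup.center G).subgroupOf K) ⟨e, he⟩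
    obtain ⟨k, hk⟩ := exists_pow_eq_self_of_coprime (x := e) (coprime_orderOf_of_pElt hs hes hsr).symm
    exact heZ (hk ▸ Subgroup.pow_mem _ h1 k)
  rw [← hmul, Nat.factorization_mul Nat.card_pos.ne' hr0, Finsupp.add_apply]
  exact Nat.lt_add_of_pos_right (hs.factorization_pos_of_dvd hr0 hsr)

theorem exists_pPart {s : ℕ} [Fact s.Prime] (g : G) : ∃ a b : G, a ∈ Subgroup.zpowers g ∧
    b ∈ Subgroup.zpowers g ∧ g = a * b ∧ IsPElt s a ∧ (orderOf b).Coprime s ∧ Commute a b := by
  obtain ⟨a, b, ha, hb, hab, ⟨k, hk⟩, hbc⟩ := CfsgLib.Transfer.exists_pPart_decomposition (p := s) g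
  refine ⟨a, b, ha, hb, hab, isPElt_of_pow_dvd hk, hbc, ?_⟩
  obtain ⟨i, rfl⟩ := Subgroup.mem_zpowers_iff.1 ha
  obtain ⟨j, rfl⟩ := Subgroup.mem_zpowers_iff.1 hb
  exact (Commute.refl g).zpow_zpow i j

theorem coprime_of_pElt_of_coprime {s : ℕ} (hs : s.Prime) {x y : G} (hx : IsPElt s x)
    (hy : (orderOf y).Coprime s) : (orderOf x).Coprime (orderOf y) :=
  coprime_orderOf_of_pElt hs hx (hs.coprime_iff_not_dvd.1 hy.symm)

theorem coprime_of_pElt {s r : ℕ} (hs : s.Prime) (hr : r.Prime) (h : r ≠ s) {x : G} (hx : IsPElt r x) :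
    (orderOf x).Coprime s :=
  coprime_orderOf_of_pElt hr hx fun hd => h ((Nat.prime_dvd_prime_iff_eq hr hs).1 hd)

theorem eq_one_of_pElt_coprime {s : ℕ} (hs : s.Prime) {x : G} (hx : IsPElt s x)
    (h : (orderOf x).Coprime s) : x = 1 :=
  orderOf_eq_one_iff.1 (Nat.eq_one_of_dvd_coprimes (coprime_of_pElt_of_coprime hs hx h) dvd_rfl dvd_rfl)

/-- In a subgroup the centralisers of the elements of order prime to `s` have index prime to `s`. -/
def Nice (K : Subgroup G) (s : ℕ) : Prop :=
  ∀ y ∈ K, (orderOf y).Coprime s → ¬ s ∣ (cen y).relIndex K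

/-- The subgroup generated by the `s`-elements of `K`. -/
def sPart (K : Subgroup G) (s : ℕ) : Subgroup G :=
  Subgroup.closure {u | u ∈ K ∧ IsPElt s u}

/-- The subgroup generated by the elements of `K` of order prime to `s`. -/
def cPart (K : Subgroup G) (s : ℕ) : Subgroup G :=
  Subgroup.closure {y | y ∈ K ∧ (orderOf y).Coprime s}

namespace Nice

variable {K : Subgroup G} {s : ℕ} [hs : Fact s.Prime] (hK : Nice K s)
include hK

theorem struct :
    (∀ u, u ∈ sPart K s ↔ u ∈ K ∧ IsPElt s u) ∧ (∀ y, y ∈ cPart K s ↔ y ∈ K ∧ (orderOf y).Coprime s) ∧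
      (∀ u ∈ K, ∀ y ∈ K, IsPElt s u → (orderOf y).Coprime s → y * u = u * y) ∧
      IsPGroup s (sPart K s) ∧ (Nat.card (cPart K s)).Coprime s ∧
      Nat.card (sPart K s) = s ^ (Nat.card K).factorization s ∧
      Nat.card (cPart K s) * Nat.card (sPart K s) = Nat.card K := by
  have hyp : ∀ y : K, (orderOf y).Coprime s → ¬ s ∣ (Subgroup.centralizer ({y} : Set K)).index := by
    intro y hy
    have he : Subgroup.centralizer ({y} : Set K) = (cen (y : G)).subgroupOf K := by
      ext u
      rw [Subgroup.mem_subgroupOf, Subgroup.mem_centralizer_singleton_iff, mem_cen, ← Subgroup.coe_mul,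
        ← Subgroup.coe_mul, Subtype.coe_inj]
    rw [he]
    exact hK y y.2 (by rwa [Subgroup.orderOf_coe])
  obtain ⟨P⟩ : Nonempty (Sylow s K) := inferInstance
  obtain ⟨hPn, hN, hcomm⟩ := CfsgLib.ClassSizes.sylow_direct_factor hyp P
  obtain ⟨N, hNn, hNP⟩ := CfsgLib.Transfer.exists_isComplement' hN P
  haveI := hNn
  haveI := hPn
  have hNc : (Nat.card N).Coprime s := by
    rw [← hNP.index_eq_card]
    exact (hs.out.coprime_iff_not_dvd.2 P.not_dvd_index).symm
  have hNi : N.index = s ^ (Nat.card K).factorization s := by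
    rw [hNP.symm.index_eq_card]; exact P.card_eq_multiplicity
  have hmemP : ∀ u : K, IsPElt s (u : G) → u ∈ (P : Subgroup K) := by
    intro u hu
    obtain ⟨k, hk⟩ := hu
    have hu' : IsPElt s u := ⟨k, Subtype.ext hk⟩
    exact P.3 ((isPGroup_zpowers hu').to_sup_of_normal_right P.2) le_sup_right ▸
      Subgroup.mem_sup_left (Subgroup.mem_zpowers u)
  have hmemN : ∀ y : K, y ∈ N ↔ (orderOf (y : G)).Coprime s := fun y => by
    rw [Subgroup.orderOf_coe]
    exact CfsgLib.Transfer.mem_iff_coprime_of_pPower_index hNc hNi y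
  have hS : sPart K s = (P : Subgroup K).map K.subtype := by
    refine le_antisymm ((Subgroup.closure_le _).2 fun u hu => ⟨⟨u, hu.1⟩, hmemP _ hu.2, rfl⟩) ?_
    rintro _ ⟨u, hu, rfl⟩
    exact Subgroup.subset_closure ⟨u.2, isPElt_of_mem (P.2.map K.subtype) (Subgroup.mem_map_of_mem _ hu)⟩
  have hC : cPart K s = N.map K.subtype := by
    refine le_antisymm ((Subgroup.closure_le _).2 fun u hu => ⟨⟨u, hu.1⟩, (hmemN _).2 hu.2, rfl⟩) ?_
    rintro _ ⟨u, hu, rfl⟩
    exact Subgroup.subset_closure ⟨u.2, (hmemN u).1 hu⟩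
  refine ⟨fun u => ⟨fun hu => ?_, fun hu => Subgroup.subset_closure hu⟩,
    fun y => ⟨fun hy => ?_, fun hy => Subgroup.subset_closure hy⟩, ?_, ?_, ?_, ?_, ?_⟩
  · rw [hS] at hu
    obtain ⟨v, hv, rfl⟩ := hu
    exact ⟨v.2, isPElt_of_mem (P.2.map K.subtype) (Subgroup.mem_map_of_mem _ hv)⟩
  · rw [hC] at hy
    obtain ⟨v, hv, rfl⟩ := hy
    exact ⟨v.2, (hmemN v).1 hv⟩
  · intro u hu y hy hus hys
    exact congrArg Subtype.val (hcomm ⟨y, hy⟩ (by rwa [Subgroup.orderOf_mk]) ⟨u, hu⟩ (hmemP ⟨u, hu⟩ hus))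
  · rw [hS]; exact P.2.map _
  · rw [hC, Subgroup.card_map_of_injective K.subtype_injective]; exact hNc
  · rw [hS, Subgroup.card_map_of_injective K.subtype_injective]; exact P.card_eq_multiplicity
  · rw [hC, hS, Subgroup.card_map_of_injective K.subtype_injective,
      Subgroup.card_map_of_injective K.subtype_injective, hNP.card_mul]

theorem mem_sPart {u : G} : u ∈ sPart K s ↔ u ∈ K ∧ IsPElt s u := (struct hK).1 u

theorem mem_cPart {y : G} : y ∈ cPart K s ↔ y ∈ K ∧ (orderOf y).Coprime s := (struct hK).2.1 y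

theorem commute {u y : G} (hu : u ∈ K) (hy : y ∈ K) (hus : IsPElt s u) (hys : (orderOf y).Coprime s) :
    Commute y u := (struct hK).2.2.1 u hu y hy hus hys

theorem isPGroup : IsPGroup s (sPart K s) := (struct hK).2.2.2.1

theorem coprime_cPart : (Nat.card (cPart K s)).Coprime s := (struct hK).2.2.2.2.1

theorem card_sPart : Nat.card (sPart K s) = s ^ (Nat.card K).factorization s := (struct hK).2.2.2.2.2.1

theorem card_mul : Nat.card (cPart K s) * Nat.card (sPart K s) = Nat.card K :=
  (struct hK).2.2.2.2.2.2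

/-- A subgroup with the full `s`-part contains all `s`-elements. -/
theorem le_of_fact {L : Subgroup G} (hL : L ≤ K)
    (h : (Nat.card L).factorization s = (Nat.card K).factorization s) {u : G} (hu : u ∈ K)
    (hus : IsPElt s u) : u ∈ L := by
  obtain ⟨S⟩ : Nonempty (Sylow s L) := inferInstance
  have hle : (S : Subgroup L).map L.subtype ≤ sPart K s := by
    rintro _ ⟨v, hv, rfl⟩
    exact (mem_sPart hK).2 ⟨hL v.2, isPElt_of_mem (S.2.map L.subtype) (Subgroup.mem_map_of_mem _ hv)⟩
  have heq := Subgroup.eq_of_le_of_card_ge hle (le_of_eq (by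
    rw [Subgroup.card_map_of_injective L.subtype_injective, S.card_eq_multiplicity, h, card_sPart hK]))
  obtain ⟨v, -, rfl⟩ := heq.ge ((mem_sPart hK).2 ⟨hu, hus⟩)
  exact v.2

end Nice

namespace Hyp

variable {m n : ℕ} (H : Hyp G m n)
include H

theorem m_ne_zero : m ≠ 0 := by have := H.one_lt_m; omega

theorem n_ne_zero : n ≠ 0 := by have := H.one_lt_n; omega

theorem m_lt : m < m * n := by
  have := H.one_lt_m; have := H.one_lt_n
  exact lt_mul_of_one_lt_right (by omega) (by omega)

theorem not_central_of_m {g : G} (hg : idx g = m) : g ∉ Subgroup.center G := fun h => by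
  have := (idx_eq_one_iff g).2 h; have := H.one_lt_m; omega

theorem not_central_of_mn {g : G} (hg : idx g = m * n) : g ∉ Subgroup.center G := fun h => by
  have := (idx_eq_one_iff g).2 h; have := H.m_lt; have := H.one_lt_m; omega

theorem idx_fact_of_dvd_m {s : ℕ} (hs : s.Prime) (hsm : s ∣ m) {g : G} (hg : g ∉ Subgroup.center G) :
    (idx g).factorization s = m.factorization s := by
  rcases H.tri g hg with h | h
  · rw [h]
  · rw [h, Nat.factorization_mul H.m_ne_zero H.n_ne_zero, Finsupp.add_apply,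
      Nat.factorization_eq_zero_of_not_dvd (n := n) fun h' =>
        hs.not_dvd_one (H.cop ▸ Nat.dvd_gcd hsm h'), add_zero]

theorem cen_fact_eq {s : ℕ} (hs : s.Prime) (hsm : s ∣ m) {g g' : G} (hg : g ∉ Subgroup.center G)
    (hg' : g' ∉ Subgroup.center G) :
    (Nat.card (cen g)).factorization s = (Nat.card (cen g')).factorization s := by
  have := card_fact_add g s; have := card_fact_add g' s
  have := H.idx_fact_of_dvd_m hs hsm hg; have := H.idx_fact_of_dvd_m hs hsm hg'
  omega

theorem exists_pElt {s : ℕ} (hs : s.Prime) (hsm : s ∣ m) {g : G} (hg : g ∉ Subgroup.center G) :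
    ∃ e ∈ cen g, IsPElt s e ∧ e ∉ Subgroup.center G := by
  haveI := Fact.mk hs
  have hlt := CfsgLib.CoprimeLargest.factorization_center_lt hs (g := g) (by
    rcases H.tri g hg with h | h <;> rw [h]
    · exact hsm
    · exact hsm.mul_right n)
  rw [← Subgroup.card_top (G := G)] at hlt
  obtain ⟨e, -, hes, heZ⟩ := exists_prime_pElt_not_central s ⊤ hlt
  refine exists_prime_pElt_not_central s (cen g) ?_
  rw [H.cen_fact_eq hs hsm hg heZ]
  exact center_fact_lt (center_le_cen e) (mem_cen.2 rfl) hes heZ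

theorem cen_eq_of_le {a b : G} (h : cen a ≤ cen b) (ha : idx a = idx b) : cen a = cen b :=
  cen_eq_of_le_of_idx h ha.le

theorem cen_eq_of_le_m {a b : G} (h : cen a ≤ cen b) (ha : idx a = m) (hb : b ∉ Subgroup.center G) :
    cen a = cen b := by
  refine cen_eq_of_le_of_idx h ?_
  rcases H.tri b hb with h' | h' <;> rw [ha, h']
  exact H.m_lt.le

theorem idx_eq_mn_of_le {a b : G} (h : cen a ≤ cen b) (hb : idx b = m * n)
    (ha : a ∉ Subgroup.center G) : idx a = m * n := by
  rcases H.tri a ha with h' | h'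
  · have hd := idx_dvd_of_le h
    rw [h', hb] at hd
    have := Nat.le_of_dvd (by have := H.one_lt_m; omega) hd
    have := H.m_lt; omega
  · exact h'

theorem nice_cen {s : ℕ} (hs : s.Prime) (hsm : s ∣ m) {x : G} (hx : IsPElt s x)
    (hxZ : x ∉ Subgroup.center G) : Nice (cen x) s := by
  intro y hy hys hd
  have hxy : Commute x y := (mem_cen.1 hy).symm
  have hcop := coprime_of_pElt_of_coprime hs hx hys
  have h1 : (cen y).relIndex (cen x) * idx x = idx (x * y) := by
    show (cen y).relIndex (cen x) * (cen x).index = (cen (x * y)).index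
    rw [cen_mul_eq_inf hxy hcop, inf_comm, ← Subgroup.inf_relIndex_right,
      Subgroup.relIndex_mul_index inf_le_right]
  have h2 := congrArg (fun k => k.factorization s) h1
  have hr0 : (cen y).relIndex (cen x) ≠ 0 := fun h => idx_ne_zero (x * y) (by rw [← h1, h, zero_mul])
  simp only [Nat.factorization_mul hr0 (idx_ne_zero x), Finsupp.add_apply,
    H.idx_fact_of_dvd_m hs hsm hxZ, H.idx_fact_of_dvd_m hs hsm (mul_not_central hxy hcop hxZ)] at h2
  have := hs.factorization_pos_of_dvd hr0 hd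
  omega

/-- For two primes of `m` the centraliser of a `u`-element splits off its `s`-part as well. -/
theorem nice_cen_other {s u : ℕ} (hs : s.Prime) (hsm : s ∣ m) (hu : u.Prime) (hum : u ∣ m) (hsu : s ≠ u)
    {w : G} (hw : IsPElt u w) (hwZ : w ∉ Subgroup.center G) : Nice (cen w) s := by
  haveI := Fact.mk hs
  haveI := Fact.mk hu
  intro y hy hys hd
  obtain ⟨a, b, ha, hb, hab, hau, hbu, hcomm⟩ := exists_pPart (s := u) y
  have hyK : Subgroup.zpowers y ≤ cen w := Subgroup.zpowers_le.2 hy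
  have hwb : Commute w b := (mem_cen.1 (hyK hb)).symm
  have hcop := coprime_of_pElt_of_coprime hu hw hbu
  set L := cen w ⊓ cen b with hL
  obtain ⟨S⟩ : Nonempty (Sylow s L) := inferInstance
  have hSy : (S : Subgroup L).map L.subtype ≤ cen y ⊓ cen w := by
    rintro _ ⟨v, hv, rfl⟩
    have hvs : IsPElt s (v : G) := isPElt_of_mem (S.2.map L.subtype) (Subgroup.mem_map_of_mem _ hv)
    refine ⟨mem_cen.2 ?_, v.2.1⟩
    rw [hab]
    exact (Commute.mul_right
      ((H.nice_cen hu hum hw hwZ).commute (hyK ha) v.2.1 hau (coprime_of_pElt hu hs hsu hvs))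
      (mem_cen.1 v.2.2)).eq
  have h3 : (Nat.card L).factorization s ≤ (Nat.card (cen y ⊓ cen w : Subgroup G)).factorization s := by
    have := fact_le_of_le hSy s
    rwa [Subgroup.card_map_of_injective L.subtype_injective, S.card_eq_multiplicity,
      hs.factorization_pow, Finsupp.single_eq_same] at this
  rw [hL, ← cen_mul_eq_inf hwb hcop, H.cen_fact_eq hs hsm (mul_not_central hwb hcop hwZ) hwZ] at h3
  have h4 : Nat.card (cen y ⊓ cen w : Subgroup G) * (cen y).relIndex (cen w) = Nat.card (cen w) := by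
    have h := Subgroup.relIndex_mul_relIndex ⊥ (cen y ⊓ cen w) (cen w) bot_le inf_le_right
    rwa [Subgroup.relIndex_bot_left, Subgroup.relIndex_bot_left, Subgroup.inf_relIndex_right] at h
  have hr0 : (cen y).relIndex (cen w) ≠ 0 := fun h =>
    Nat.card_pos.ne' (h4.symm.trans (by rw [h, mul_zero]))
  rw [← h4, Nat.factorization_mul Nat.card_pos.ne' hr0, Finsupp.add_apply] at h3
  have := hs.factorization_pos_of_dvd hr0 hd
  omega

/-- Commuting noncentral elements for two primes of `m` have the same centraliser. -/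
theorem pair_le {s u : ℕ} (hs : s.Prime) (hsm : s ∣ m) (hu : u.Prime) (hum : u ∣ m) (hsu : s ≠ u)
    {x w : G} (hx : IsPElt s x) (hxZ : x ∉ Subgroup.center G) (hw : IsPElt u w)
    (hwZ : w ∉ Subgroup.center G) (hxw : Commute x w) : cen w ≤ cen x := by
  haveI := Fact.mk hs
  have hN := H.nice_cen_other hs hsm hu hum hsu hw hwZ
  have hcop := isPElt_coprime hs hu hsu hx hw
  refine le_of_forall_pElt fun q hq v hv hvq => ?_
  rcases eq_or_ne q s with rfl | hqs
  · have h := hN.le_of_fact (L := cen (x * w)) (by rw [cen_mul_eq_inf hxw hcop]; exact inf_le_right)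
      (H.cen_fact_eq hs hsm (mul_not_central hxw hcop hxZ) hwZ) hv hvq
    exact cen_mul_le hxw hcop h
  · exact mem_cen.2 (hN.commute (mem_cen.2 hxw.eq) hv hx (coprime_of_pElt hs hq hqs hvq)).eq

theorem pair_eq {s u : ℕ} (hs : s.Prime) (hsm : s ∣ m) (hu : u.Prime) (hum : u ∣ m) (hsu : s ≠ u)
    {x w : G} (hx : IsPElt s x) (hxZ : x ∉ Subgroup.center G) (hw : IsPElt u w)
    (hwZ : w ∉ Subgroup.center G) (hxw : Commute x w) : cen x = cen w :=
  le_antisymm (H.pair_le hu hum hs hsm hsu.symm hw hwZ hx hxZ hxw.symm)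
    (H.pair_le hs hsm hu hum hsu hx hxZ hw hwZ hxw)

end Hyp

end CfsgLib.RankTwoClass
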